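import Cfsg.Agent.Lib.ToddCox.G24O.OrbD
set_option autoImplicit false
set_option maxRecDepth 100000
namespace Cfsg.Agent.Lib.ToddCox.G24O
open Cfsg.Agent.Lib.ToddCox.G24T in
theorem lv0_0 : allBits (fun k => bif Nat.blt k 416 then chkOrbPos Cfsg.Agent.Lib.ToddCox.G24T.tab L 0 0 416 416 (fun q => orbR (Nat.add 0 q)) k else true) 11 0 = true := by decide +kernel
theorem fx0 : ∀ w ∈ L.drop 6, tabW Cfsg.Agent.Lib.ToddCox.G24T.tab w 0 = 0 := by decide +kernel
theorem lv1_0 : allBits (fun k => bif Nat.blt k 315 then chkOrbPos Cfsg.Agent.Lib.ToddCox.G24T.tab L 6 1 315 416 (fun q => orbR (Nat.add 416 q)) k else true) 11 0 = true := by decide +kernel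
theorem fx1 : ∀ w ∈ L.drop 11, tabW Cfsg.Agent.Lib.ToddCox.G24T.tab w 1 = 1 := by decide +kernel
theorem lv2_0 : allBits (fun k => bif Nat.blt k 160 then chkOrbPos Cfsg.Agent.Lib.ToddCox.G24T.tab L 11 10 160 416 (fun q => orbR (Nat.add 731 q)) k else true) 11 0 = true := by decide +kernel
theorem fx2 : ∀ w ∈ L.drop 16, tabW Cfsg.Agent.Lib.ToddCox.G24T.tab w 10 = 10 := by decide +kernel
theorem lv3_0 : allBits (fun k => bif Nat.blt k 12 then chkOrbPos Cfsg.Agent.Lib.ToddCox.G24T.tab L 16 37 12 416 (fun q => orbR (Nat.add 891 q)) k else true) 11 0 = true := by decide +kernel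
theorem fx3 : ∀ w ∈ L.drop 18, tabW Cfsg.Agent.Lib.ToddCox.G24T.tab w 37 = 37 := by decide +kernel
end Cfsg.Agent.Lib.ToddCox.G24O
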